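import Cfsg.Agent.Lib.Helper19.OrdFi23.U0
import Cfsg.Agent.Lib.Helper19.OrdFi23.U1
import Cfsg.Agent.Lib.Helper19.OrdFi23.U2
import Cfsg.Agent.Lib.Helper19.OrdFi23.U3
import Cfsg.Agent.Lib.Helper19.OrdFi23.U4
import Cfsg.Agent.Lib.Helper19.OrdFi23.U5
import Cfsg.Agent.Lib.Helper19.OrdFi23.U6
import Cfsg.Agent.Lib.Helper19.OrdFi23.U7
import Cfsg.Agent.Lib.Helper19.OrdFi23.U8
import Cfsg.Agent.Lib.Helper19.OrdFi23.LX
import Cfsg.Agent.Lib.Helper19.OrdFi23.CX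

/-! Generated file: certificates for the order of a presented group. -/

set_option autoImplicit false
set_option maxRecDepth 1000000

namespace Cfsg.Agent.Lib.Helper19.OrdFi23

open Cfsg.Agent.Lib.Helper19.TCS (evn evn_rot evn_rev evn_pair AllS forall_of_allS lift_rels mk_eq_lift cox_swap shapeI prod_rep index_of_equiv orbit_ncard orbit_image ncard_interval fix_of_closure RC)
open Cfsg.Agent.Lib.Helper19.TC2
open Cfsg.Spor Cfsg.Agent.Lib.Helper19.PresFi23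
open Cfsg.Agent.Lib.Helper19


theorem fin_nil : Finite (KK el []) := by
  rw [KK_nil]
  infer_instance

theorem card_nil : Nat.card (KK el []) = 1 := by
  rw [KK_nil]
  exact Subgroup.card_bot

theorem ub_all : Finite (KK el [0, 1, 2, 3, 4, 5, 6, 8, 9]) ∧ Nat.card (KK el [0, 1, 2, 3, 4, 5, 6, 8, 9]) ≤ 129123503308800 := by
  obtain ⟨f8, u8⟩ := U8.ub fin_nil
  obtain ⟨f7, u7⟩ := U7.ub f8
  obtain ⟨f6, u6⟩ := U6.ub f7
  obtain ⟨f5, u5⟩ := U5.ub f6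
  obtain ⟨f4, u4⟩ := U4.ub f5
  obtain ⟨f3, u3⟩ := U3.ub f4
  obtain ⟨f2, u2⟩ := U2.ub f3
  obtain ⟨f1, u1⟩ := U1.ub f2
  obtain ⟨f0, u0⟩ := U0.ub f1
  refine ⟨f0, ?_⟩
  have := card_nil
  omega

theorem fin_le (J : List ℕ) (h : ∀ k ∈ J, k ∈ [0, 1, 2, 3, 4, 5, 6, 8, 9]) : Finite (KK el J) :=
  haveI := ub_all.1
  Finite.of_injective _ (Subgroup.inclusion_injective (KK_mono el h))

theorem chain : Nat.card (KK el [0, 1, 2, 3, 4, 5, 6, 8, 9]) = 129123503308800 ∧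
    Nat.card (KK el [0, 1, 2, 3, 4, 5, 6, 8, 9]) ≤ 28160 * Nat.card (KK el [0, 1, 2, 3, 4, 5, 8, 9]) ∧
    Nat.card (KK el [0, 1, 2, 3, 4, 5, 8, 9]) ≤ 3159 * Nat.card (KK el [0, 1, 2, 3, 4, 8, 9]) ∧
    Nat.card (KK el [0, 1, 2, 3, 4, 8, 9]) ≤ 288 * Nat.card (KK el [0, 1, 2, 3, 8, 9]) ∧
    Nat.card (KK el [0, 1, 2, 3, 8, 9]) ≤ 7 * Nat.card (KK el [1, 2, 3, 8, 9]) ∧
    Nat.card (KK el [1, 2, 3, 8, 9]) ≤ 6 * Nat.card (KK el [2, 3, 8, 9]) ∧
    Nat.card (KK el [2, 3, 8, 9]) ≤ 5 * Nat.card (KK el [3, 8, 9]) ∧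
    Nat.card (KK el [3, 8, 9]) ≤ 4 * Nat.card (KK el [8, 9]) ∧
    Nat.card (KK el [8, 9]) ≤ 3 * Nat.card (KK el [9]) ∧
    Nat.card (KK el [9]) ≤ 2 * Nat.card (KK el []) := by
  haveI g0 : Finite (KK el [0, 1, 2, 3, 4, 5, 6, 8, 9]) := fin_le _ (by decide)
  have l0 := LX.lb0.card_le
  haveI g1 : Finite (KK el [0, 1, 2, 3, 4, 5, 8, 9]) := fin_le _ (by decide)
  have l1 := LX.lb1.card_le
  haveI g2 : Finite (KK el [0, 1, 2, 3, 4, 8, 9]) := fin_le _ (by decide)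
  have l2 := LX.lb2.card_le
  haveI g3 : Finite (KK el [0, 1, 2, 3, 8, 9]) := fin_le _ (by decide)
  have l3 := LX.lb3.card_le
  haveI g4 : Finite (KK el [1, 2, 3, 8, 9]) := fin_le _ (by decide)
  have l4 := LX.lb4.card_le
  haveI g5 : Finite (KK el [2, 3, 8, 9]) := fin_le _ (by decide)
  have l5 := LX.lb5.card_le
  haveI g6 : Finite (KK el [3, 8, 9]) := fin_le _ (by decide)
  have l6 := LX.lb6.card_le
  haveI g7 : Finite (KK el [8, 9]) := fin_le _ (by decide)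
  have l7 := LX.lb7.card_le
  haveI g8 : Finite (KK el [9]) := fin_le _ (by decide)
  have l8 := LX.lb8.card_le
  have u := ub_all.2
  have c := card_nil
  refine ⟨by omega, by omega, by omega, by omega, by omega, by omega, by omega, by omega, by omega, by omega⟩

theorem ker_top (x : Cfsg.Spor.Fi23) (hx : x ∈ KK el [0, 1, 2, 3, 4, 5, 6, 8, 9]) (hX : Fi23a.ψ x = 1) : x = 1 := by
  obtain ⟨_, t0, t1, t2, t3, t4, t5, t6, t7, t8⟩ := chain
  haveI g0 : Finite (KK el [0, 1, 2, 3, 4, 5, 6, 8, 9]) := fin_le _ (by decide)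
  have m0 := LX.lb0.ker_le (by decide) t0 x hx hX
  haveI g1 : Finite (KK el [0, 1, 2, 3, 4, 5, 8, 9]) := fin_le _ (by decide)
  have m1 := LX.lb1.ker_le (by decide) t1 x m0 hX
  haveI g2 : Finite (KK el [0, 1, 2, 3, 4, 8, 9]) := fin_le _ (by decide)
  have m2 := LX.lb2.ker_le (by decide) t2 x m1 hX
  haveI g3 : Finite (KK el [0, 1, 2, 3, 8, 9]) := fin_le _ (by decide)
  have m3 := LX.lb3.ker_le (by decide) t3 x m2 hX
  haveI g4 : Finite (KK el [1, 2, 3, 8, 9]) := fin_le _ (by decide)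
  have m4 := LX.lb4.ker_le (by decide) t4 x m3 hX
  haveI g5 : Finite (KK el [2, 3, 8, 9]) := fin_le _ (by decide)
  have m5 := LX.lb5.ker_le (by decide) t5 x m4 hX
  haveI g6 : Finite (KK el [3, 8, 9]) := fin_le _ (by decide)
  have m6 := LX.lb6.ker_le (by decide) t6 x m5 hX
  haveI g7 : Finite (KK el [8, 9]) := fin_le _ (by decide)
  have m7 := LX.lb7.ker_le (by decide) t7 x m6 hX
  haveI g8 : Finite (KK el [9]) := fin_le _ (by decide)
  have m8 := LX.lb8.ker_le (by decide) t8 x m7 hX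
  rw [KK_nil] at m8
  exact Subgroup.mem_bot.1 m8

theorem HH_eq : Fi23a.HH = KK el [0, 1, 2, 3, 4, 5, 6, 8, 9] := by
  rw [Fi23a.hH]
  unfold KK
  congr 1
  ext g
  constructor
  · rintro ⟨s, hs, rfl⟩
    simp only [Fi23a.SS, Set.mem_insert_iff, Set.mem_singleton_iff] at hs
    rcases hs with rfl | rfl | rfl | rfl | rfl | rfl | rfl | rfl | rfl
    · exact ⟨0, by decide, rfl⟩
    · exact ⟨1, by decide, rfl⟩
    · exact ⟨2, by decide, rfl⟩
    · exact ⟨3, by decide, rfl⟩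
    · exact ⟨4, by decide, rfl⟩
    · exact ⟨5, by decide, rfl⟩
    · exact ⟨6, by decide, rfl⟩
    · exact ⟨8, by decide, rfl⟩
    · exact ⟨9, by decide, rfl⟩
  · rintro ⟨k, hk, rfl⟩
    simp only [List.mem_cons, List.not_mem_nil, or_false] at hk
    rcases hk with rfl | rfl | rfl | rfl | rfl | rfl | rfl | rfl | rfl
    · exact ⟨FreeGroup.of .a, by simp [Fi23a.SS], rfl⟩
    · exact ⟨FreeGroup.of .b, by simp [Fi23a.SS], rfl⟩
    · exact ⟨FreeGroup.of .c, by simp [Fi23a.SS], rfl⟩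
    · exact ⟨FreeGroup.of .d, by simp [Fi23a.SS], rfl⟩
    · exact ⟨FreeGroup.of .e, by simp [Fi23a.SS], rfl⟩
    · exact ⟨FreeGroup.of .f, by simp [Fi23a.SS], rfl⟩
    · exact ⟨FreeGroup.of .g, by simp [Fi23a.SS], rfl⟩
    · exact ⟨FreeGroup.of .h, by simp [Fi23a.SS], rfl⟩
    · exact ⟨FreeGroup.of .i, by simp [Fi23a.SS], rfl⟩

theorem card_eq : Nat.card Cfsg.Spor.Fi23 = 4089470473293004800 := by
  rw [← Subgroup.card_mul_index Fi23a.HH, Fi23a.index_eq, HH_eq, chain.1]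

theorem joint (x : Cfsg.Spor.Fi23) (hX : Fi23a.ψ x = 1) : x = 1 := by
  apply ker_top x _ hX
  rw [← HH_eq]
  apply CX.stab
  rw [hX]
  rfl

end Cfsg.Agent.Lib.Helper19.OrdFi23
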